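import Cfsg.Agent.H193.K6.TwoM
import Cfsg.Agent.H228.K6.Crit

/-!
# S4876: the torus of rank two of `F₄(q)`, `p = 7`, `p ∣ q² ± q + 1`, and `p = 5`, `p ∣ q² + 1` (helper266)

* `inert7_2`, `inert7_4`, `inert7_3`, `inert7_5`, `inert5_2`, `inert5_3` : the local data;
* `hom7_3`, `hom7_6`, `hom5_4` : two cyclic factors of order `p ^ a`.
-/

set_option autoImplicit false
set_option linter.unusedSectionVars false
set_option maxRecDepth 100000
set_option maxHeartbeats 4000000

namespace Cfsg.Agent.H266.K6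

open Cfsg Cfsg.Lie Cfsg.Lie.ChevalleyDatum
open Cfsg.Agent.ChevalleyStructure.CoxeterGeomTypes Cfsg.Agent.Nodes.RGDChev Cfsg.Agent.H129.WData
  Cfsg.Agent.H129.TorusChar Cfsg.Agent.BpExc.RowsUntw Cfsg.Agent.H720.TwFr Cfsg.Agent.H210.EL Cfsg.Agent.H61.K6
  Cfsg.Agent.H228.K6 Cfsg.Agent.H193.K6.TwoM

universe u v

local instance : Fact (Nat.Prime 5) := ⟨by norm_num⟩
local instance : Fact (Nat.Prime 7) := ⟨by norm_num⟩

/-- the Cartan matrix -/
def Am : Mat 4 := ![![2, -1, 0, 0], ![-1, 2, -2, 0], ![0, -1, 2, -1], ![0, 0, -1, 2]]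

def W3 : Mat 4 := ![![-1, -1, -1, 0], ![-1, -2, -1, -1], ![2, 2, 1, 1], ![0, 2, 1, 0]]
def W6 : Mat 4 := ![![1, 1, 1, 0], ![1, 2, 1, 1], ![-2, -2, -1, -1], ![0, -2, -1, 0]]
def W4 : Mat 4 := ![![-1, -2, -1, -1], ![0, -1, -1, 0], ![0, 2, 1, 0], ![2, 2, 2, 1]]

/-- `w` of order 3 -/
def cw3 : List (Fin 4 × Mat 4) := [
    (2, dm 625216129173727466765807),
    (3, dm 625216130299626299867631),
    (2, dm 662995062162583461577199),
    (1, dm 664175652657402039778799),
    (2, dm 664175652657402073333199),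
    (0, dm 662995062162584568872399),
    (1, dm 662997368003394760359375),
    (2, dm 662997368003394760359407),
    (3, dm 664177958498212264821231),
    (2, dm 664177922469449605595631),
    (0, dm 662997330848733268033007),
    (1, dm 662995025007923076546032),
    (2, dm 662921238031628271894000),
    (0, dm 661740646410910860591600),
    (1, dm 661740646408711839433199),
    (0, dm 661740646338343128809999)]

/-- `- w` -/
def cw6 : List (Fin 4 × Mat 4) := [
    (1, dm 622707297525244584543793),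
    (2, dm 622781084501539389195857),
    (0, dm 625142266617074304960081),
    (1, dm 625142266619273327167057),
    (2, dm 625216053595568165373489),
    (3, dm 625216054721468072215089),
    (1, dm 662995022613187893150257),
    (2, dm 662921235707261799121425)]

/-- `w` of order 4 -/
def cw4 : List (Fin 4 × Mat 4) := [
    (3, dm 664177922469449605561807),
    (2, dm 664177958498212264820175),
    (1, dm 662997368003394760359375),
    (2, dm 662997368003394760359407),
    (3, dm 664177958498212264821231),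
    (2, dm 664177922469449605595631),
    (0, dm 662997330848733268033007),
    (1, dm 662995025007923076546032),
    (2, dm 662921238031628271894000),
    (0, dm 661740646410910860591600),
    (1, dm 661740646408711839433199),
    (0, dm 661740646338343128809999)]

/-- a reflection of order 3 -/
def cv : List (Fin 4 × Mat 4) := [
    (2, dm 664175614233905339055599),
    (1, dm 662995022613187927753199),
    (2, dm 662921235707261800169999),
    (0, dm 661740646338343128809999)]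

/-- a reflection of order 4 -/
def cv4 : List (Fin 4 × Mat 4) := [
    (2, dm 662921238029428142392881),
    (1, dm 661740646408711804830257)]

theorem hA : ∀ i j, Am i j = cartanOf chevF4 4 i j := by decide +kernel
theorem w3_ok : ChainOK Am cw3 := by decide +kernel
theorem w6_ok : ChainOK Am cw6 := by decide +kernel
theorem w4_ok : ChainOK Am cw4 := by decide +kernel
theorem v_ok : ChainOK Am cv := by decide +kernel
theorem v4_ok : ChainOK Am cv4 := by decide +kernel
theorem hd3 : hd cw3 = W3 := by decide +kernel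
theorem hd6 : hd cw6 = W6 := by decide +kernel
theorem hd4 : hd cw4 = W4 := by decide +kernel
theorem c3 : CommOK (hd cv) (hd cw3) := by decide +kernel
theorem c6 : CommOK (hd cv) (hd cw6) := by decide +kernel
theorem c4 : CommOK (hd cv4) (hd cw4) := by decide +kernel

section

variable {F : Type} [Field F] [Fintype F] {q : ℕ}

theorem inert7_2 (hF : (7 : F) ≠ 0) (hq : Fintype.card F = q) (hs : (q : ZMod 7) = 2)
    (hc : ¬ 7 ^ 3 ∣ Nat.card ↥(chevF4.group F)) :
    ∃ (x y z : ↥(chevF4.group F)) (r : ℕ), H404.K6.Inert 7 x y z r 3 := by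
  obtain ⟨Γ, _, f, X, h⟩ := exists_out_untw f4T (p := 7) (by exact_mod_cast hF) hq invC_F4 one_ne_zero (Or.inl rfl)
    (by norm_num) hA w3_ok
  rw [hs] at h
  obtain ⟨x, y, z, hI⟩ := h.inert v_ok c3 (a := ![1, 5, 6, 1]) (by decide +kernel) (by decide +kernel)
    (b := ![0, 1, 6, 4]) (by decide +kernel) (by decide +kernel) (t := 2) (n := 4) (by decide +kernel)
    (by decide +kernel) (by decide +kernel) (m := 3) (by norm_num) (by
      intro i h0 h1
      interval_cases i <;> decide +kernel) hc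
  exact ⟨x, y, z, _, hI⟩

theorem inert7_4 (hF : (7 : F) ≠ 0) (hq : Fintype.card F = q) (hs : (q : ZMod 7) = 4)
    (hc : ¬ 7 ^ 3 ∣ Nat.card ↥(chevF4.group F)) :
    ∃ (x y z : ↥(chevF4.group F)) (r : ℕ), H404.K6.Inert 7 x y z r 3 := by
  obtain ⟨Γ, _, f, X, h⟩ := exists_out_untw f4T (p := 7) (by exact_mod_cast hF) hq invC_F4 one_ne_zero (Or.inl rfl)
    (by norm_num) hA w3_ok
  rw [hs] at h
  obtain ⟨x, y, z, hI⟩ := h.inert v_ok c3 (a := ![1, 1, 1, 6]) (by decide +kernel) (by decide +kernel)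
    (b := ![0, 1, 6, 2]) (by decide +kernel) (by decide +kernel) (t := 4) (n := 2) (by decide +kernel)
    (by decide +kernel) (by decide +kernel) (m := 3) (by norm_num) (by
      intro i h0 h1
      interval_cases i <;> decide +kernel) hc
  exact ⟨x, y, z, _, hI⟩

theorem inert7_3 (hF : (7 : F) ≠ 0) (hq : Fintype.card F = q) (hs : (q : ZMod 7) = 3)
    (hc : ¬ 7 ^ 3 ∣ Nat.card ↥(chevF4.group F)) :
    ∃ (x y z : ↥(chevF4.group F)) (r : ℕ), H404.K6.Inert 7 x y z r 3 := by
  obtain ⟨Γ, _, f, X, h⟩ := exists_out_untw f4T (p := 7) (by exact_mod_cast hF) hq invC_F4 one_ne_zero (Or.inl rfl)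
    (by norm_num) hA w6_ok
  rw [hs] at h
  obtain ⟨x, y, z, hI⟩ := h.inert v_ok c6 (a := ![1, 1, 1, 6]) (by decide +kernel) (by decide +kernel)
    (b := ![0, 1, 6, 2]) (by decide +kernel) (by decide +kernel) (t := 4) (n := 2) (by decide +kernel)
    (by decide +kernel) (by decide +kernel) (m := 3) (by norm_num) (by
      intro i h0 h1
      interval_cases i <;> decide +kernel) hc
  exact ⟨x, y, z, _, hI⟩

theorem inert7_5 (hF : (7 : F) ≠ 0) (hq : Fintype.card F = q) (hs : (q : ZMod 7) = 5)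
    (hc : ¬ 7 ^ 3 ∣ Nat.card ↥(chevF4.group F)) :
    ∃ (x y z : ↥(chevF4.group F)) (r : ℕ), H404.K6.Inert 7 x y z r 3 := by
  obtain ⟨Γ, _, f, X, h⟩ := exists_out_untw f4T (p := 7) (by exact_mod_cast hF) hq invC_F4 one_ne_zero (Or.inl rfl)
    (by norm_num) hA w6_ok
  rw [hs] at h
  obtain ⟨x, y, z, hI⟩ := h.inert v_ok c6 (a := ![1, 5, 6, 1]) (by decide +kernel) (by decide +kernel)
    (b := ![0, 1, 6, 4]) (by decide +kernel) (by decide +kernel) (t := 2) (n := 4) (by decide +kernel)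
    (by decide +kernel) (by decide +kernel) (m := 3) (by norm_num) (by
      intro i h0 h1
      interval_cases i <;> decide +kernel) hc
  exact ⟨x, y, z, _, hI⟩

theorem inert5_2 (hF : (5 : F) ≠ 0) (hq : Fintype.card F = q) (hs : (q : ZMod 5) = 2)
    (hc : ¬ 5 ^ 3 ∣ Nat.card ↥(chevF4.group F)) :
    ∃ (x y z : ↥(chevF4.group F)) (r : ℕ), H404.K6.Inert 5 x y z r 4 := by
  obtain ⟨Γ, _, f, X, h⟩ := exists_out_untw f4T (p := 5) (by exact_mod_cast hF) hq invC_F4 one_ne_zero (Or.inl rfl)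
    (by norm_num) hA w4_ok
  rw [hs] at h
  obtain ⟨x, y, z, hI⟩ := h.inert v4_ok c4 (a := ![1, 2, 4, 4]) (by decide +kernel) (by decide +kernel)
    (b := ![1, 0, 0, 2]) (by decide +kernel) (by decide +kernel) (t := 2) (n := 3) (by decide +kernel)
    (by decide +kernel) (by decide +kernel) (m := 4) (by norm_num) (by
      intro i h0 h1
      interval_cases i <;> decide +kernel) hc
  exact ⟨x, y, z, _, hI⟩

theorem inert5_3 (hF : (5 : F) ≠ 0) (hq : Fintype.card F = q) (hs : (q : ZMod 5) = 3)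
    (hc : ¬ 5 ^ 3 ∣ Nat.card ↥(chevF4.group F)) :
    ∃ (x y z : ↥(chevF4.group F)) (r : ℕ), H404.K6.Inert 5 x y z r 4 := by
  obtain ⟨Γ, _, f, X, h⟩ := exists_out_untw f4T (p := 5) (by exact_mod_cast hF) hq invC_F4 one_ne_zero (Or.inl rfl)
    (by norm_num) hA w4_ok
  rw [hs] at h
  obtain ⟨x, y, z, hI⟩ := h.inert v4_ok c4 (a := ![1, 1, 1, 3]) (by decide +kernel) (by decide +kernel)
    (b := ![1, 0, 0, 1]) (by decide +kernel) (by decide +kernel) (t := 3) (n := 2) (by decide +kernel)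
    (by decide +kernel) (by decide +kernel) (m := 4) (by norm_num) (by
      intro i h0 h1
      interval_cases i <;> decide +kernel) hc
  exact ⟨x, y, z, _, hI⟩

/-! ### the factors of order `p ^ a` -/

theorem ev3 {m : ℕ} {s : ZMod m} (hs : s ^ 2 + s + 1 = 0) : EV (hd cw3) s ![s, -1, 2, 0] := by
  rw [hd3]
  unfold EV
  funext j
  fin_cases j <;> simp [mv, W3, Fin.sum_univ_four] <;> first | ring1 | linear_combination (-1) * hs

theorem ev3' {m : ℕ} {s : ZMod m} (hs : s ^ 2 + s + 1 = 0) : EV (hd cw3) s ![0, -1, 1, 1 + s] := by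
  rw [hd3]
  unfold EV
  funext j
  fin_cases j <;> simp [mv, W3, Fin.sum_univ_four] <;> first | ring1 | linear_combination (-1) * hs

theorem ev6 {m : ℕ} {s : ZMod m} (hs : s ^ 2 - s + 1 = 0) : EV (hd cw6) s ![s, 1, -2, 0] := by
  rw [hd6]
  unfold EV
  funext j
  fin_cases j <;> simp [mv, W6, Fin.sum_univ_four] <;> first | ring1 | linear_combination (-1) * hs

theorem ev6' {m : ℕ} {s : ZMod m} (hs : s ^ 2 - s + 1 = 0) : EV (hd cw6) s ![0, 1, -1, -1 + s] := by
  rw [hd6]
  unfold EV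
  funext j
  fin_cases j <;> simp [mv, W6, Fin.sum_univ_four] <;> first | ring1 | linear_combination (-1) * hs

theorem ev4 {m : ℕ} {s : ZMod m} (hs : s ^ 2 + 1 = 0) : EV (hd cw4) s ![-1, -1, 1 + s, 2] := by
  rw [hd4]
  unfold EV
  funext j
  fin_cases j <;> simp [mv, W4, Fin.sum_univ_four] <;> first | ring1 | linear_combination (-1) * hs

theorem ev4' {m : ℕ} {s : ZMod m} (hs : s ^ 2 + 1 = 0) : EV (hd cw4) s ![-1, 0, 0, 1 + s] := by
  rw [hd4]
  unfold EV
  funext j
  fin_cases j <;> simp [mv, W4, Fin.sum_univ_four] <;> first | ring1 | linear_combination (-1) * hs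

variable {F : Type} [Field F] [Fintype F] {q : ℕ}

theorem hom3 {p : ℕ} [hp : Fact p.Prime] (hF : (p : F) ≠ 0) (hq : Fintype.card F = q) {a : ℕ}
    (hs : (q : ZMod (p ^ a)) ^ 2 + q + 1 = 0) :
    ∃ φ : (Fin 2 → Multiplicative (ZMod (p ^ a))) →* ↥(chevF4.group F), Function.Injective φ :=
  hom_untw f4T hF hq invC_F4 one_ne_zero (Or.inl rfl) hp.out.not_dvd_one hA w3_ok (ev3 hs) (ev3' hs) (i := 1) (j := 2) (by
    have h : ((![(q : ZMod (p ^ a)), -1, 2, 0] : Fin 4 → ZMod (p ^ a)) 1 *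
        (![0, -1, 1, 1 + (q : ZMod (p ^ a))] : Fin 4 → ZMod (p ^ a)) 2 -
        (![(q : ZMod (p ^ a)), -1, 2, 0] : Fin 4 → ZMod (p ^ a)) 2 *
        (![0, -1, 1, 1 + (q : ZMod (p ^ a))] : Fin 4 → ZMod (p ^ a)) 1) = 1 := by
      simp
      ring1
    rw [h]
    exact isUnit_one)

theorem hom6 {p : ℕ} [hp : Fact p.Prime] (hF : (p : F) ≠ 0) (hq : Fintype.card F = q) {a : ℕ}
    (hs : (q : ZMod (p ^ a)) ^ 2 - q + 1 = 0) :
    ∃ φ : (Fin 2 → Multiplicative (ZMod (p ^ a))) →* ↥(chevF4.group F), Function.Injective φ :=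
  hom_untw f4T hF hq invC_F4 one_ne_zero (Or.inl rfl) hp.out.not_dvd_one hA w6_ok (ev6 hs) (ev6' hs) (i := 1) (j := 2) (by
    have h : ((![(q : ZMod (p ^ a)), 1, -2, 0] : Fin 4 → ZMod (p ^ a)) 1 *
        (![0, 1, -1, -1 + (q : ZMod (p ^ a))] : Fin 4 → ZMod (p ^ a)) 2 -
        (![(q : ZMod (p ^ a)), 1, -2, 0] : Fin 4 → ZMod (p ^ a)) 2 *
        (![0, 1, -1, -1 + (q : ZMod (p ^ a))] : Fin 4 → ZMod (p ^ a)) 1) = 1 := by
      simp
      ring1
    rw [h]
    exact isUnit_one)

theorem hom4 {p : ℕ} [hp : Fact p.Prime] (hF : (p : F) ≠ 0) (hq : Fintype.card F = q) {a : ℕ}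
    (hs : (q : ZMod (p ^ a)) ^ 2 + 1 = 0) :
    ∃ φ : (Fin 2 → Multiplicative (ZMod (p ^ a))) →* ↥(chevF4.group F), Function.Injective φ :=
  hom_untw f4T hF hq invC_F4 one_ne_zero (Or.inl rfl) hp.out.not_dvd_one hA w4_ok (ev4 hs) (ev4' hs) (i := 0) (j := 1) (by
    have h : ((![-1, -1, 1 + (q : ZMod (p ^ a)), 2] : Fin 4 → ZMod (p ^ a)) 0 *
        (![-1, 0, 0, 1 + (q : ZMod (p ^ a))] : Fin 4 → ZMod (p ^ a)) 1 -
        (![-1, -1, 1 + (q : ZMod (p ^ a)), 2] : Fin 4 → ZMod (p ^ a)) 1 *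
        (![-1, 0, 0, 1 + (q : ZMod (p ^ a))] : Fin 4 → ZMod (p ^ a)) 0) = -1 := by
      simp
    rw [h]
    exact isUnit_one.neg)

end

end Cfsg.Agent.H266.K6
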