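import Cfsg.Agent.H266.K6.FFour
import Cfsg.Agent.H129.FE.Grp
import Cfsg.Agent.H129.FE.Fix
import Cfsg.Agent.H228.K6.RowE6
import Cfsg.Agent.H436.Names

/-!
# S4876: the rows `F₄(q)`, `E₆(q)`, `²E₆(q)` for `p = 5, 7`, `p ∤ q² - 1` (helper266)
-/

set_option autoImplicit false
set_option linter.unusedSectionVars false
set_option maxRecDepth 100000
set_option maxHeartbeats 4000000

namespace Cfsg.Agent.H266.K6

open Cfsg Cfsg.Lie Cfsg.Lie.ChevalleyDatum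
open Cfsg.Agent.ChevalleyStructure.CoxeterGeomTypes Cfsg.Agent.Nodes.RGDChev Cfsg.Agent.H129.WData
  Cfsg.Agent.H129.TorusChar Cfsg.Agent.BpExc.RowsUntw Cfsg.Agent.H720.TwFr Cfsg.Agent.H210.EL Cfsg.Agent.H61.K6
  Cfsg.Agent.H228.K6 Cfsg.Agent.H193.K6.TwoM Cfsg.Agent.H436 Cfsg.Agent.OrdDiv Cfsg.Agent.H129.FE

universe u v

local instance : Fact (Nat.Prime 5) := ⟨by norm_num⟩
local instance : Fact (Nat.Prime 7) := ⟨by norm_num⟩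

theorem not_dvd {p a c N : ℕ} (hp : p.Prime) {m R : ℤ} (hm : ¬ (p : ℤ) ∣ m) (hR : ¬ (p : ℤ) ∣ R)
    (h : (c : ℤ) * N = ((p : ℤ) ^ a * m) ^ 2 * R) : ¬ p ^ (2 * a + 1) ∣ N := by
  rintro ⟨t, rfl⟩
  have hp' : Prime (p : ℤ) := Nat.prime_iff_prime_int.1 hp
  have hp0 : (p : ℤ) ^ (2 * a) ≠ 0 := pow_ne_zero _ hp'.ne_zero
  have h1 : (p : ℤ) * (c * t) = m ^ 2 * R := by
    apply mul_left_cancel₀ hp0
    push_cast at h
    linear_combination h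
  rcases hp'.dvd_or_dvd (show (p : ℤ) ∣ m ^ 2 * R from ⟨_, h1.symm⟩) with h2 | h2
  · exact hm (hp'.dvd_of_dvd_pow h2)
  · exact hR h2

/-- **The general row of rank two.** -/
theorem krow_gen {p n : ℕ} [hp : Fact p.Prime] (hn : (p = 5 ∧ 4 ≤ n) ∨ (p = 7 ∧ 3 ≤ n))
    {Y : Type} [Group Y] [Finite Y] {G : Type} [Group G] (j : G →* Y) (hj : Function.Injective j) {c : ℕ} {P R : ℤ}
    (hP0 : P ≠ 0) (hP : (p : ℤ) ∣ P) (hcard : (c : ℤ) * (Nat.card Y : ℤ) = P ^ 2 * R) (hR : ¬ (p : ℤ) ∣ R)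
    (hin : ¬ p ^ 3 ∣ Nat.card G → ∃ (x y z : G) (r : ℕ), H404.K6.Inert p x y z r n)
    (hom : ∀ a : ℕ, ((p ^ a : ℕ) : ℤ) ∣ P → ∃ φ : (Fin 2 → Multiplicative (ZMod (p ^ a))) →* G,
      Function.Injective φ) : KRow.{u, 0} p Y := by
  have hp1 : p ≠ 1 := hp.out.ne_one
  obtain ⟨a, m, hm, ha⟩ := Nat.exists_eq_pow_mul_and_not_dvd (Int.natAbs_ne_zero.2 hP0) p hp1
  -- `P = p ^ a * m'`
  obtain ⟨m', hm', hPm⟩ : ∃ m' : ℤ, ¬ (p : ℤ) ∣ m' ∧ P = (p : ℤ) ^ a * m' := by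
    have h1 : ((P.natAbs : ℕ) : ℤ) = (p : ℤ) ^ a * m := by rw [ha]; push_cast; ring
    rcases Int.natAbs_eq P with h | h
    · exact ⟨m, fun hd => hm (Int.natCast_dvd_natCast.1 hd), h.trans h1⟩
    · refine ⟨-m, fun hd => hm (Int.natCast_dvd_natCast.1 ((Int.dvd_neg).1 hd)), ?_⟩
      rw [h, h1]
      ring
  have hN : ¬ p ^ (2 * a + 1) ∣ Nat.card Y := not_dvd hp.out hm' hR (by rw [hcard, hPm])
  have ha0 : a ≠ 0 := by
    rintro rfl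
    rw [pow_zero, one_mul] at hPm
    exact hm' (hPm ▸ hP)
  by_cases ha1 : a = 1
  · subst ha1
    have h3 : ¬ p ^ 3 ∣ Nat.card G := fun h => hN (h.trans (Subgroup.card_dvd_of_injective j hj))
    obtain ⟨x, y, z, r, hI⟩ := hin h3
    exact H404.K6.KRow.of_inertial (hI.map j hj hN) hn
  · obtain ⟨φ, hφ⟩ := hom a ⟨m', by rw [hPm]; push_cast; rfl⟩
    exact krow_of_two (by rcases hn with h | h; exacts [Or.inl h.1, Or.inr h.1]) (by omega) (j.comp φ) (hj.comp hφ) hN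

section

variable {F : Type} [Field F] [Fintype F] {q : ℕ}

theorem cast_zero {n : ℕ} {f : ℤ} (h : ((n : ℕ) : ℤ) ∣ f) : ((f : ℤ) : ZMod n) = 0 :=
  (ZMod.intCast_zmod_eq_zero_iff_dvd f n).2 h

/-- `p = 7`, `q` of order 3 -/
theorem krow7a (hF : (7 : F) ≠ 0) (hq : Fintype.card F = q) {Y : Type} [Group Y] [Finite Y]
    (j : ↥(chevF4.group F) →* Y) (hj : Function.Injective j) (hs : (q : ZMod 7) = 2 ∨ (q : ZMod 7) = 4) {c : ℕ} {R : ℤ}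
    (hcard : (c : ℤ) * (Nat.card Y : ℤ) = ((q : ℤ) ^ 2 + q + 1) ^ 2 * R) (hR : ¬ ((7 : ℕ) : ℤ) ∣ R) :
    KRow.{u, 0} 7 Y := by
  refine krow_gen (n := 3) (Or.inr ⟨rfl, le_rfl⟩) j hj (by positivity) ?_ hcard hR (fun hc => ?_) (fun a ha => ?_)
  · rw [← ZMod.intCast_zmod_eq_zero_iff_dvd]
    push_cast
    rcases hs with h | h <;> rw [h] <;> decide +kernel
  · rcases hs with h | h
    · exact inert7_2 hF hq h hc
    · exact inert7_4 hF hq h hc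
  · refine hom3 (p := 7) (by exact_mod_cast hF) hq ?_
    have h1 := cast_zero ha
    push_cast at h1
    exact h1

/-- `p = 7`, `q` of order 6 -/
theorem krow7b (hF : (7 : F) ≠ 0) (hq : Fintype.card F = q) {Y : Type} [Group Y] [Finite Y]
    (j : ↥(chevF4.group F) →* Y) (hj : Function.Injective j) (hs : (q : ZMod 7) = 3 ∨ (q : ZMod 7) = 5) {c : ℕ} {R : ℤ}
    (hcard : (c : ℤ) * (Nat.card Y : ℤ) = ((q : ℤ) ^ 2 - q + 1) ^ 2 * R) (hR : ¬ ((7 : ℕ) : ℤ) ∣ R) :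
    KRow.{u, 0} 7 Y := by
  refine krow_gen (n := 3) (Or.inr ⟨rfl, le_rfl⟩) j hj (by nlinarith [sq_nonneg ((q : ℤ) - 1)]) ?_ hcard hR
    (fun hc => ?_) (fun a ha => ?_)
  · rw [← ZMod.intCast_zmod_eq_zero_iff_dvd]
    push_cast
    rcases hs with h | h <;> rw [h] <;> decide +kernel
  · rcases hs with h | h
    · exact inert7_3 hF hq h hc
    · exact inert7_5 hF hq h hc
  · refine hom6 (p := 7) (by exact_mod_cast hF) hq ?_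
    have h1 := cast_zero ha
    push_cast at h1
    exact h1

/-- `p = 5`, `q` of order 4 -/
theorem krow5 (hF : (5 : F) ≠ 0) (hq : Fintype.card F = q) {Y : Type} [Group Y] [Finite Y]
    (j : ↥(chevF4.group F) →* Y) (hj : Function.Injective j) (hs : (q : ZMod 5) = 2 ∨ (q : ZMod 5) = 3) {c : ℕ} {R : ℤ}
    (hcard : (c : ℤ) * (Nat.card Y : ℤ) = ((q : ℤ) ^ 2 + 1) ^ 2 * R) (hR : ¬ ((5 : ℕ) : ℤ) ∣ R) :
    KRow.{u, 0} 5 Y := by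
  refine krow_gen (n := 4) (Or.inl ⟨rfl, le_rfl⟩) j hj (by positivity) ?_ hcard hR (fun hc => ?_) (fun a ha => ?_)
  · rw [← ZMod.intCast_zmod_eq_zero_iff_dvd]
    push_cast
    rcases hs with h | h <;> rw [h] <;> decide +kernel
  · rcases hs with h | h
    · exact inert5_2 hF hq h hc
    · exact inert5_3 hF hq h hc
  · refine hom4 (p := 5) (by exact_mod_cast hF) hq ?_
    have h1 := cast_zero ha
    push_cast at h1
    exact h1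

/-! ### the named groups -/

theorem res7 : ∀ s : ZMod 7, s ≠ 0 → s ^ 2 ≠ 1 → (s = 2 ∨ s = 4) ∨ (s = 3 ∨ s = 5) := by decide +kernel

theorem res5 : ∀ s : ZMod 5, s ≠ 0 → s ^ 2 ≠ 1 → s = 2 ∨ s = 3 := by decide +kernel

theorem cast_ne {p q : ℕ} (hq : ¬ p ∣ q) : (q : ZMod p) ≠ 0 := fun h => hq ((ZMod.natCast_eq_zero_iff q p).1 h)

theorem sq_ne {p q : ℕ} (hq0 : q ≠ 0) (hd : ¬ p ∣ q ^ 2 - 1) : (q : ZMod p) ^ 2 ≠ 1 := by
  intro h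
  apply hd
  rw [← ZMod.natCast_eq_zero_iff, Nat.cast_sub (Nat.one_le_pow _ _ (Nat.pos_of_ne_zero hq0))]
  push_cast
  rw [h, sub_self]

theorem cast_field_ne {F : Type} [Field F] [Fintype F] {p : ℕ} (hp : p.Prime) (h : ¬ p ∣ Fintype.card F) :
    (p : F) ≠ 0 := by
  intro h0
  obtain ⟨r, hr⟩ := CharP.exists F
  obtain ⟨k, hrp, hk⟩ := FiniteField.card F r
  have h1 : r ∣ p := (CharP.cast_eq_zero_iff F r p).1 h0
  rcases (Nat.dvd_prime hp).1 h1 with h2 | h2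
  · exact hrp.ne_one h2
  · rw [← h2, hk] at h
    exact h (dvd_pow_self r k.ne_zero)

theorem cast_pow_sub {q : ℕ} (hq : 1 ≤ q) (k : ℕ) : ((q ^ k - 1 : ℕ) : ℤ) = (q : ℤ) ^ k - 1 := by
  rw [Nat.cast_sub (Nat.one_le_pow _ _ hq)]
  push_cast
  rfl

theorem not_dvd_zmod {p : ℕ} {R : ℤ} (h : (R : ZMod p) ≠ 0) : ¬ (p : ℤ) ∣ R := fun hd =>
  h ((ZMod.intCast_zmod_eq_zero_iff_dvd R p).2 hd)

/-- **`F₄(q)`, `p = 5, 7`, `p ∤ q² - 1`.** -/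
theorem f4_more {S : Type v} [Group S] {p q : ℕ} (h57 : p = 5 ∨ p = 7) (h : IsNamed (.f4 q) S) (hq : ¬ p ∣ q)
    (hd : ¬ p ∣ q ^ 2 - 1) : KRow.{u, v} p S := by
  obtain ⟨F, i1, i2, hF, ⟨e⟩⟩ := h.real
  have hq1 : 1 ≤ q := hF ▸ Fintype.card_pos
  have hcard : (1 : ℕ) * Nat.card ↥(chevF4.group F) =
      q ^ 24 * ((q ^ 2 - 1) * (q ^ 6 - 1) * (q ^ 8 - 1) * (q ^ 12 - 1)) := by
    rw [← Nat.card_congr e.toEquiv]
    exact h.eq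
  have hc : ((1 : ℕ) : ℤ) * (Nat.card ↥(chevF4.group F) : ℤ) =
      (q : ℤ) ^ 24 * (((q : ℤ) ^ 2 - 1) * ((q : ℤ) ^ 6 - 1) * ((q : ℤ) ^ 8 - 1) * ((q : ℤ) ^ 12 - 1)) := by
    rw [← cast_pow_sub hq1, ← cast_pow_sub hq1, ← cast_pow_sub hq1, ← cast_pow_sub hq1]
    exact_mod_cast hcard
  refine KRow.congr e.symm ?_
  rcases h57 with rfl | rfl
  · have h5 : (5 : F) ≠ 0 := by exact_mod_cast cast_field_ne (F := F) (p := 5) (by norm_num) (hF ▸ hq)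
    have hs := res5 q (cast_ne hq) (sq_ne (by omega) hd)
    refine krow5 h5 hF (MonoidHom.id _) (fun _ _ h => h) hs
      (R := (q : ℤ) ^ 24 * ((q : ℤ) ^ 2 - 1) * ((q : ℤ) ^ 6 - 1) * ((q : ℤ) ^ 2 - 1) * ((q : ℤ) ^ 4 + 1) *
        ((q : ℤ) ^ 2 - 1) * ((q : ℤ) ^ 8 + (q : ℤ) ^ 4 + 1)) (hc.trans (by ring)) (not_dvd_zmod ?_)
    push_cast
    rcases hs with h | h <;> rw [h] <;> decide +kernel
  · have h7 : (7 : F) ≠ 0 := by exact_mod_cast cast_field_ne (F := F) (p := 7) (by norm_num) (hF ▸ hq)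
    rcases res7 q (cast_ne hq) (sq_ne (by omega) hd) with hs | hs
    · refine krow7a h7 hF (MonoidHom.id _) (fun _ _ h => h) hs
        (R := (q : ℤ) ^ 24 * ((q : ℤ) ^ 2 - 1) * (((q : ℤ) - 1) * ((q : ℤ) ^ 3 + 1)) * ((q : ℤ) ^ 8 - 1) *
          (((q : ℤ) - 1) * ((q : ℤ) ^ 3 + 1) * ((q : ℤ) ^ 6 + 1))) (hc.trans (by ring)) (not_dvd_zmod ?_)
      push_cast
      rcases hs with h | h <;> rw [h] <;> decide +kernel
    · refine krow7b h7 hF (MonoidHom.id _) (fun _ _ h => h) hs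
        (R := (q : ℤ) ^ 24 * ((q : ℤ) ^ 2 - 1) * (((q : ℤ) + 1) * ((q : ℤ) ^ 3 - 1)) * ((q : ℤ) ^ 8 - 1) *
          (((q : ℤ) + 1) * ((q : ℤ) ^ 3 - 1) * ((q : ℤ) ^ 6 + 1))) (hc.trans (by ring)) (not_dvd_zmod ?_)
      push_cast
      rcases hs with h | h <;> rw [h] <;> decide +kernel

/-- **`E₆(q)`, `p = 5, 7`, `p ∤ q² - 1`.** -/
theorem e6_more {S : Type v} [Group S] {p q : ℕ} (h57 : p = 5 ∨ p = 7) (h : IsNamed (.e6 q) S) (hq : ¬ p ∣ q)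
    (hd : ¬ p ∣ q ^ 2 - 1) : KRow.{u, v} p S := by
  obtain ⟨F, i1, i2, hF, ⟨e⟩⟩ := h.real
  have hq1 : 1 ≤ q := hF ▸ Fintype.card_pos
  have hcard : Nat.gcd 3 (q - 1) * Nat.card ↥(chevE6.group F) =
      q ^ 36 * ((q ^ 2 - 1) * (q ^ 5 - 1) * (q ^ 6 - 1) * (q ^ 8 - 1) * (q ^ 9 - 1) * (q ^ 12 - 1)) := by
    rw [← Nat.card_congr e.toEquiv]
    exact h.eq
  have hc : ((Nat.gcd 3 (q - 1) : ℕ) : ℤ) * (Nat.card ↥(chevE6.group F) : ℤ) =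
      (q : ℤ) ^ 36 * (((q : ℤ) ^ 2 - 1) * ((q : ℤ) ^ 5 - 1) * ((q : ℤ) ^ 6 - 1) * ((q : ℤ) ^ 8 - 1) *
        ((q : ℤ) ^ 9 - 1) * ((q : ℤ) ^ 12 - 1)) := by
    rw [← cast_pow_sub hq1, ← cast_pow_sub hq1, ← cast_pow_sub hq1, ← cast_pow_sub hq1, ← cast_pow_sub hq1,
      ← cast_pow_sub hq1]
    exact_mod_cast hcard
  refine KRow.congr e.symm ?_
  rcases h57 with rfl | rfl
  · have h5 : (5 : F) ≠ 0 := by exact_mod_cast cast_field_ne (F := F) (p := 5) (by norm_num) (hF ▸ hq)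
    have hs := res5 q (cast_ne hq) (sq_ne (by omega) hd)
    refine krow5 h5 hF (toE6 F) (toE6_injective F) hs
      (R := (q : ℤ) ^ 36 * ((q : ℤ) ^ 2 - 1) * ((q : ℤ) ^ 5 - 1) * ((q : ℤ) ^ 6 - 1) * (((q : ℤ) ^ 2 - 1) *
        ((q : ℤ) ^ 4 + 1)) * ((q : ℤ) ^ 9 - 1) *
        (((q : ℤ) ^ 2 - 1) * ((q : ℤ) ^ 8 + (q : ℤ) ^ 4 + 1))) (hc.trans (by ring)) (not_dvd_zmod ?_)
    push_cast
    rcases hs with h | h <;> rw [h] <;> decide +kernel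
  · have h7 : (7 : F) ≠ 0 := by exact_mod_cast cast_field_ne (F := F) (p := 7) (by norm_num) (hF ▸ hq)
    rcases res7 q (cast_ne hq) (sq_ne (by omega) hd) with hs | hs
    · rcases hs with hs | hs
      · exact H228.K6.E6.e6_2 h7 hF hs
      · exact H228.K6.E6.e6_4 h7 hF hs
    · refine krow7b h7 hF (toE6 F) (toE6_injective F) hs
        (R := (q : ℤ) ^ 36 * ((q : ℤ) ^ 2 - 1) * ((q : ℤ) ^ 5 - 1) * (((q : ℤ) + 1) * ((q : ℤ) ^ 3 - 1)) *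
          ((q : ℤ) ^ 8 - 1) * ((q : ℤ) ^ 9 - 1) *
          (((q : ℤ) + 1) * ((q : ℤ) ^ 3 - 1) * ((q : ℤ) ^ 6 + 1))) (hc.trans (by ring)) (not_dvd_zmod ?_)
      push_cast
      rcases hs with h | h <;> rw [h] <;> decide +kernel

/-- **`²E₆(q)`, `p = 5, 7`, `p ∤ q² - 1`.** -/
theorem te6_more {S : Type v} [Group S] {p q : ℕ} (h57 : p = 5 ∨ p = 7) (h : IsNamed (.te6 q) S) (hq : ¬ p ∣ q)
    (hd : ¬ p ∣ q ^ 2 - 1) : KRow.{u, v} p S := by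
  obtain ⟨K, i1, i2, hK, ⟨e⟩⟩ := h.real
  have hqp : IsPrimePow q := h.cond
  have hq1 : 1 ≤ q := hqp.pos
  obtain ⟨F, i3, i4, hF, f, hf⟩ := exists_subfield hK
  have hcard : Nat.gcd 3 (q + 1) * Nat.card ↥(twistedE6 K q) =
      q ^ 36 * ((q ^ 2 - 1) * (q ^ 5 + 1) * (q ^ 6 - 1) * (q ^ 8 - 1) * (q ^ 9 + 1) * (q ^ 12 - 1)) := by
    rw [← Nat.card_congr e.toEquiv]
    exact h.eq
  have hc : ((Nat.gcd 3 (q + 1) : ℕ) : ℤ) * (Nat.card ↥(twistedE6 K q) : ℤ) =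
      (q : ℤ) ^ 36 * (((q : ℤ) ^ 2 - 1) * ((q : ℤ) ^ 5 + 1) * ((q : ℤ) ^ 6 - 1) * ((q : ℤ) ^ 8 - 1) *
        ((q : ℤ) ^ 9 + 1) * ((q : ℤ) ^ 12 - 1)) := by
    rw [← cast_pow_sub hq1, ← cast_pow_sub hq1, ← cast_pow_sub hq1, ← cast_pow_sub hq1]
    exact_mod_cast hcard
  refine KRow.congr e.symm ?_
  rcases h57 with rfl | rfl
  · have h5 : (5 : F) ≠ 0 := by exact_mod_cast cast_field_ne (F := F) (p := 5) (by norm_num) (hF ▸ hq)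
    have hs := res5 q (cast_ne hq) (sq_ne (by omega) hd)
    refine krow5 h5 hF (toTE6 f hf) (toTE6_injective f hf) hs
      (R := (q : ℤ) ^ 36 * ((q : ℤ) ^ 2 - 1) * ((q : ℤ) ^ 5 + 1) * ((q : ℤ) ^ 6 - 1) * (((q : ℤ) ^ 2 - 1) *
        ((q : ℤ) ^ 4 + 1)) * ((q : ℤ) ^ 9 + 1) *
        (((q : ℤ) ^ 2 - 1) * ((q : ℤ) ^ 8 + (q : ℤ) ^ 4 + 1))) (hc.trans (by ring)) (not_dvd_zmod ?_)
    push_cast
    rcases hs with h | h <;> rw [h] <;> decide +kernel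
  · have h7 : (7 : F) ≠ 0 := by exact_mod_cast cast_field_ne (F := F) (p := 7) (by norm_num) (hF ▸ hq)
    have h7K : (7 : K) ≠ 0 := by
      exact_mod_cast cast_field_ne (F := K) (p := 7) (by norm_num)
        (by rw [hK]; exact fun h => hq (Nat.Prime.dvd_of_dvd_pow (by norm_num) h))
    rcases res7 q (cast_ne hq) (sq_ne (by omega) hd) with hs | hs
    · refine krow7a h7 hF (toTE6 f hf) (toTE6_injective f hf) hs
        (R := (q : ℤ) ^ 36 * ((q : ℤ) ^ 2 - 1) * ((q : ℤ) ^ 5 + 1) * (((q : ℤ) - 1) * ((q : ℤ) ^ 3 + 1)) *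
          ((q : ℤ) ^ 8 - 1) * ((q : ℤ) ^ 9 + 1) *
          (((q : ℤ) - 1) * ((q : ℤ) ^ 3 + 1) * ((q : ℤ) ^ 6 + 1))) (hc.trans (by ring)) (not_dvd_zmod ?_)
      push_cast
      rcases hs with h | h <;> rw [h] <;> decide +kernel
    · rcases hs with hs | hs
      · exact H228.K6.E6.te6_3 h7K hqp hK hs
      · exact H228.K6.E6.te6_5 h7K hqp hK hs

end

end Cfsg.Agent.H266.K6
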